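import Mathlib

set_option autoImplicit false

namespace Cfsg.Agent.H325

/-- A graph in which any two vertices have a common neighbour (or are equal or adjacent), and which is
not complete, is connected of diameter two. -/
theorem connected_diam_two {V : Type*} [Nonempty V] (G : SimpleGraph V)
    (h2 : ∀ u v, ∃ w, (u = w ∨ G.Adj u w) ∧ (w = v ∨ G.Adj w v))
    (hne : ∃ u v, u ≠ v ∧ ¬ G.Adj u v) : G.Connected ∧ G.diam = 2 := by
  have hle : ∀ u v, G.edist u v ≤ 2 := by
    intro u v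
    obtain ⟨w, h1, h3⟩ := h2 u v
    have e1 : G.edist u w ≤ 1 := G.edist_le_one_iff_adj_or_eq.2 h1.symm
    have e2 : G.edist w v ≤ 1 := G.edist_le_one_iff_adj_or_eq.2 h3.symm
    calc G.edist u v ≤ G.edist u w + G.edist w v := G.edist_triangle
      _ ≤ 1 + 1 := add_le_add e1 e2
      _ = 2 := by norm_num
  have hed : G.ediam ≤ 2 := G.ediam_le_of_edist_le hle
  have htop : G.ediam ≠ ⊤ := ne_top_of_le_ne_top (by decide) hed
  have hconn : G.Connected := G.connected_of_ediam_ne_top htop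
  refine ⟨hconn, le_antisymm ?_ ?_⟩
  · rw [SimpleGraph.diam]
    exact ENat.toNat_le_of_le_natCast hed
  · obtain ⟨u, v, huv, hadj⟩ := hne
    exact (hconn.one_lt_dist_of_ne_of_not_adj huv hadj).trans_le (G.dist_le_diam htop)

/-- if `x`, `z` are involutions (or trivial) and `x z` has odd order then `x` and `z` are conjugate -/
theorem isConj_of_odd {G : Type*} [Group G] {x z : G} (hx : x * x = 1) (hz : z * z = 1)
    (h : Odd (orderOf (x * z))) : IsConj x z := by
  obtain ⟨k, hk⟩ := h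
  rw [isConj_iff]
  set g := x * z with hg
  have hxi : x⁻¹ = x := inv_eq_of_mul_eq_one_right hx
  have hzi : z⁻¹ = z := inv_eq_of_mul_eq_one_right hz
  have hgi : g⁻¹ = z * x := by rw [hg, mul_inv_rev, hxi, hzi]
  -- x g x⁻¹ = g⁻¹
  have hinv : x * g * x⁻¹ = g⁻¹ := by
    rw [hgi, hg, hxi, ← mul_assoc, hx, one_mul]
  have hinvk : ∀ n : ℕ, x * g ^ n * x⁻¹ = (g ^ n)⁻¹ := by
    intro n
    have : x * g ^ n * x⁻¹ = (x * g * x⁻¹) ^ n := by rw [conj_pow]
    rw [this, hinv, inv_pow]
  refine ⟨g ^ k, ?_⟩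
  -- g^k x g^{-k} = g^{2k} x = g^{-1} x = z
  have h1 : x * (g ^ k)⁻¹ = g ^ k * x := by
    have := hinvk k
    rw [← this, hxi, ← mul_assoc, ← mul_assoc, hx, one_mul]
  have h2 : g ^ (2 * k + 1) = 1 := by rw [← hk]; exact pow_orderOf_eq_one g
  calc g ^ k * x * (g ^ k)⁻¹ = g ^ k * (x * (g ^ k)⁻¹) := by rw [mul_assoc]
    _ = g ^ k * (g ^ k * x) := by rw [h1]
    _ = g⁻¹ * (g ^ (2 * k + 1)) * x := by
        rw [pow_succ', ← mul_assoc g⁻¹, inv_mul_cancel, one_mul, two_mul, pow_add, mul_assoc]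
    _ = z := by rw [h2, mul_one, hgi, mul_assoc, hx, mul_one]

/-- The odd product graph on the class of an involution: reduction to existence of a common neighbour. -/
theorem odd_product_graph {G : Type*} [Group G] (t : G)
    (h2 : ∀ x y : {x : G // IsConj t x}, ∃ z : {x : G // IsConj t x},
      Odd (orderOf (x.1 * z.1)) ∧ Odd (orderOf (z.1 * y.1)))
    (hne : ∃ x y : {x : G // IsConj t x}, ¬ Odd (orderOf (x.1 * y.1))) (ht : t * t = 1) :
    (SimpleGraph.fromRel fun x y : {x : G // IsConj t x} => Odd (orderOf (x.1 * y.1))).Connected ∧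
      (SimpleGraph.fromRel fun x y : {x : G // IsConj t x} =>
        Odd (orderOf (x.1 * y.1))).diam = 2 := by
  have : Nonempty {x : G // IsConj t x} := ⟨⟨t, IsConj.refl t⟩⟩
  apply connected_diam_two
  · intro x y
    obtain ⟨z, h1, h3⟩ := h2 x y
    refine ⟨z, ?_, ?_⟩
    · by_cases e : x = z
      · exact Or.inl e
      · exact Or.inr ((SimpleGraph.fromRel_adj _ _ _).2 ⟨e, Or.inl h1⟩)
    · by_cases e : z = y
      · exact Or.inl e
      · exact Or.inr ((SimpleGraph.fromRel_adj _ _ _).2 ⟨e, Or.inl h3⟩)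
  · obtain ⟨x, y, hxy⟩ := hne
    have hsq : ∀ u : {x : G // IsConj t x}, u.1 * u.1 = 1 := by
      intro u
      obtain ⟨c, hc⟩ := isConj_iff.1 u.2
      rw [← hc]
      calc c * t * c⁻¹ * (c * t * c⁻¹) = c * (t * t) * c⁻¹ := by group
        _ = 1 := by rw [ht, mul_one, mul_inv_cancel]
    refine ⟨x, y, ?_, ?_⟩
    · rintro rfl
      rw [hsq, orderOf_one] at hxy
      exact hxy odd_one
    · rw [SimpleGraph.fromRel_adj]
      rintro ⟨-, h | h⟩
      · exact hxy h
      · apply hxy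
        have e : (y.1 * x.1)⁻¹ = x.1 * y.1 := by
          rw [mul_inv_rev, inv_eq_of_mul_eq_one_right (hsq x), inv_eq_of_mul_eq_one_right (hsq y)]
        rw [← e, orderOf_inv]
        exact h

end Cfsg.Agent.H325
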